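import Mathlib
import Cfsg.Agent.H607.TW.Defs
import Cfsg.Agent.H920.Basic
import Cfsg.Agent.H918.UProper
import Cfsg.Agent.ClassicalGeometry.HermParabolic
import Cfsg.Agent.ClassicalGeometry.PSUAutMain
import Cfsg.Agent.LieClassical.GUOrder

/-!
# S3694, node T2: the model of `PSU_n(q)` (helper296)

* `model_su` : a group `N ≅ PSU_n(q)` normal in `G` with trivial centralizer is `SU_n(q)` modulo scalars, and all the
  automorphisms induced by `G` lift to the matrix ring;
* `index_su` : the bound for `|G : N|`;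
* `lift_su` : every element of `G` has a lift `x ↦ B σ(x) B⁻¹` with `B` unitary;
* `star_su` : the adjoint induces the identity.
-/

set_option autoImplicit false

namespace Cfsg.Agent.H296.TW

open Cfsg Subgroup Matrix Cfsg.Agent.H607.TW
open Cfsg.Agent.LieClassical.HermBasic (conj conj_apply pow_q_pow_q exists_norm_eq card_norm_eq_one q_pos)
open Cfsg.Agent.ClassicalGeometry.HermParabolic (preserves_iff map_conj_conj)

universe u

section Basic

variable {G : Type u} [Group G] {F : Type} [Field F] {n : ℕ} {S : Type} [Group S]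

theorem mt_mul (ι : S →* Matrix.GeneralLinearGroup (Fin n) F) (s t : S) : mt ι (s * t) = mt ι s * mt ι t := by
  change ((ι (s * t) : Matrix.GeneralLinearGroup (Fin n) F) : Matrix (Fin n) (Fin n) F) = _
  rw [map_mul, Units.val_mul]
  rfl

theorem mt_one (ι : S →* Matrix.GeneralLinearGroup (Fin n) F) : mt ι 1 = 1 := by
  change ((ι 1 : Matrix.GeneralLinearGroup (Fin n) F) : Matrix (Fin n) (Fin n) F) = _
  rw [map_one, Units.val_one]

theorem mt_mul_inv (ι : S →* Matrix.GeneralLinearGroup (Fin n) F) (s : S) : mt ι s * mt ι s⁻¹ = 1 := by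
  rw [← mt_mul, mul_inv_cancel, mt_one]

theorem mt_inv_mul (ι : S →* Matrix.GeneralLinearGroup (Fin n) F) (s : S) : mt ι s⁻¹ * mt ι s = 1 := by
  rw [← mt_mul, inv_mul_cancel, mt_one]

theorem mt_inj {ι : S →* Matrix.GeneralLinearGroup (Fin n) F} (h : Function.Injective ι) {s t : S}
    (hst : mt ι s = mt ι t) : s = t := h (Units.ext hst)

theorem GL_mul_inv (B : Matrix.GeneralLinearGroup (Fin n) F) :
    (B : Matrix (Fin n) (Fin n) F) * ((B⁻¹ : Matrix.GeneralLinearGroup (Fin n) F) : Matrix (Fin n) (Fin n) F) = 1 := by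
  rw [← Units.val_mul, mul_inv_cancel, Units.val_one]

theorem GL_inv_mul (B : Matrix.GeneralLinearGroup (Fin n) F) :
    ((B⁻¹ : Matrix.GeneralLinearGroup (Fin n) F) : Matrix (Fin n) (Fin n) F) * (B : Matrix (Fin n) (Fin n) F) = 1 := by
  rw [← Units.val_mul, inv_mul_cancel, Units.val_one]

theorem map_mul' (σ : F ≃+* F) (x y : Matrix (Fin n) (Fin n) F) : (x * y).map σ = x.map σ * y.map σ := by
  have h := Matrix.map_mul (L := x) (M := y) (f := (σ : F →+* F))
  exact h

theorem tauP_mul (B : Matrix.GeneralLinearGroup (Fin n) F) (σ : F ≃+* F) (x y : Matrix (Fin n) (Fin n) F) :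
    tauP B σ (x * y) = tauP B σ x * tauP B σ y := by
  rw [tauP_apply, tauP_apply, tauP_apply, map_mul']
  have h := GL_inv_mul B
  calc _ = (B : Matrix (Fin n) (Fin n) F) * x.map σ * 1 * y.map σ *
        ((B⁻¹ : Matrix.GeneralLinearGroup (Fin n) F) : Matrix (Fin n) (Fin n) F) := by simp only [mul_assoc, one_mul]
    _ = _ := by rw [← h]; simp only [mul_assoc]

theorem tauM_mul (B : Matrix.GeneralLinearGroup (Fin n) F) (σ : F ≃+* F) (x y : Matrix (Fin n) (Fin n) F) :
    tauM B σ (x * y) = tauM B σ y * tauM B σ x := by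
  have h : ∀ z : Matrix (Fin n) (Fin n) F, tauM B σ z = tauP B σ z.transpose := fun z => rfl
  rw [h, h, h, ← tauP_mul, Matrix.transpose_mul]

/-- The matrix ring is not commutative. -/
theorem not_comm (hn : 2 ≤ n) : ¬ ∀ x y : Matrix (Fin n) (Fin n) F, x * y = y * x := by
  intro h
  let i : Fin n := ⟨0, by omega⟩
  let j : Fin n := ⟨1, by omega⟩
  have hij : i ≠ j := by
    intro h1
    have := congrArg Fin.val h1
    simp [i, j] at this
  have h1 := h (Matrix.single i j 1) (Matrix.single j i 1)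
  rw [Matrix.single_mul_single_same, Matrix.single_mul_single_same] at h1
  have h2 := congrFun (congrFun h1 i) i
  rw [Matrix.single_apply_same, Matrix.single_apply_of_ne] at h2
  · simp at h2
  · rintro ⟨h3, -⟩
    exact hij h3.symm

theorem not_mul_and_anti (hn : 2 ≤ n) {τ : Matrix (Fin n) (Fin n) F ≃+ Matrix (Fin n) (Fin n) F}
    (h1 : ∀ x y, τ (x * y) = τ x * τ y) (h2 : ∀ x y, τ (x * y) = τ y * τ x) : False := by
  apply not_comm (F := F) hn
  intro x y
  have h := (h1 (τ.symm x) (τ.symm y)).symm.trans (h2 (τ.symm x) (τ.symm y))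
  simpa using h

theorem ind_tauP (hn : 2 ≤ n) {ι : S →* Matrix.GeneralLinearGroup (Fin n) F} {π : S →* G} {g : G}
    {B : Matrix.GeneralLinearGroup (Fin n) F} {σ : F ≃+* F} :
    Ind ι π g (tauP B σ) ↔ ∀ s : S, ∃ s' : S, mt ι s' = tauP B σ (mt ι s) ∧ π s' = g * π s * g⁻¹ := by
  constructor
  · rintro (⟨-, h⟩ | ⟨h, -⟩)
    · exact h
    · exact (not_mul_and_anti hn (tauP_mul B σ) h).elim
  · intro h
    exact Or.inl ⟨tauP_mul B σ, h⟩

theorem ind_tauM (hn : 2 ≤ n) {ι : S →* Matrix.GeneralLinearGroup (Fin n) F} {π : S →* G} {g : G}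
    {B : Matrix.GeneralLinearGroup (Fin n) F} {σ : F ≃+* F} :
    Ind ι π g (tauM B σ) ↔ ∀ s : S, ∃ s' : S, mt ι s' = tauM B σ (mt ι s) ∧ (π s')⁻¹ = g * π s * g⁻¹ := by
  constructor
  · rintro (⟨h, -⟩ | ⟨-, h⟩)
    · exact (not_mul_and_anti hn h (tauM_mul B σ)).elim
    · exact h
  · intro h
    exact Or.inr ⟨tauM_mul B σ, h⟩

/-- The element is determined by its lift. -/
theorem eq_of_ind {N : Subgroup G} (hc : centralizer (N : Set G) = ⊥) {ι : S →* Matrix.GeneralLinearGroup (Fin n) F}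
    {π : S →* G} (hinj : Function.Injective ι) (hr : π.range = N) (hn : 2 ≤ n) {g h : G}
    {B : Matrix.GeneralLinearGroup (Fin n) F} {σ : F ≃+* F}
    (h1 : Ind ι π g (tauP B σ)) (h2 : Ind ι π h (tauP B σ)) : g = h := by
  rw [ind_tauP hn] at h1 h2
  have h3 : h⁻¹ * g ∈ centralizer (N : Set G) := by
    rw [Subgroup.mem_centralizer_iff]
    intro x hx
    rw [← hr] at hx
    obtain ⟨s, rfl⟩ := hx
    obtain ⟨s1, e1, f1⟩ := h1 s
    obtain ⟨s2, e2, f2⟩ := h2 s
    have e : s1 = s2 := mt_inj hinj (e1.trans e2.symm)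
    rw [e, f2] at f1
    have f3 := congrArg (fun z => h⁻¹ * z * g) f1
    calc π s * (h⁻¹ * g) = h⁻¹ * (h * π s * h⁻¹) * g := by group
      _ = h⁻¹ * (g * π s * g⁻¹) * g := f3
      _ = h⁻¹ * g * π s := by group
  rw [hc, Subgroup.mem_bot] at h3
  exact (inv_mul_eq_one.1 h3).symm

end Basic

section Unitary

variable {G : Type u} [Group G] {F : Type} [Field F] [Fintype F] {n q : ℕ}

/-- The adjoint. -/
def st (hF : Fintype.card F = q ^ 2) (x : Matrix (Fin n) (Fin n) F) : Matrix (Fin n) (Fin n) F :=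
  x.transpose.map (conj hF)

theorem st_mul (hF : Fintype.card F = q ^ 2) (x y : Matrix (Fin n) (Fin n) F) : st hF (x * y) = st hF y * st hF x := by
  rw [st, st, st, Matrix.transpose_mul, map_mul']

theorem st_st (hF : Fintype.card F = q ^ 2) (x : Matrix (Fin n) (Fin n) F) : st hF (st hF x) = x := by
  ext i j
  simp only [st, Matrix.map_apply, Matrix.transpose_apply, conj_apply, pow_q_pow_q hF]

theorem st_one (hF : Fintype.card F = q ^ 2) : st hF (1 : Matrix (Fin n) (Fin n) F) = 1 := by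
  rw [st, Matrix.transpose_one]
  exact Matrix.map_one (conj hF) (map_zero _) (map_one _)

theorem st_smul (hF : Fintype.card F = q ^ 2) (c : F) (x : Matrix (Fin n) (Fin n) F) :
    st hF (c • x) = c ^ q • st hF x := by
  ext i j
  simp only [st, Matrix.map_apply, Matrix.transpose_apply, conj_apply, Matrix.smul_apply, smul_eq_mul, mul_pow]

theorem st_map (hF : Fintype.card F = q ^ 2) (σ : F ≃+* F) (x : Matrix (Fin n) (Fin n) F) :
    st hF (x.map σ) = (st hF x).map σ := by
  ext i j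
  simp only [st, Matrix.map_apply, Matrix.transpose_apply, conj_apply, map_pow]

/-- A matrix is unitary iff `x* x = 1`. -/
theorem preserves_iff_st (hF : Fintype.card F = q ^ 2) (M : Matrix (Fin n) (Fin n) F) :
    (∀ u v : Fin n → F, hermForm n F q (M *ᵥ u) (M *ᵥ v) = hermForm n F q u v) ↔ st hF M * M = 1 := by
  rw [preserves_iff hF]
  constructor
  · intro h
    have h1 := congrArg (fun z : Matrix (Fin n) (Fin n) F => z.map (conj hF)) h
    simp only [map_mul', map_conj_conj] at h1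
    rw [st, h1]
    exact Matrix.map_one (conj hF) (map_zero _) (map_one _)
  · intro h
    have h1 := congrArg (fun z : Matrix (Fin n) (Fin n) F => z.map (conj hF)) h
    simp only [map_mul', st, map_conj_conj] at h1
    rw [h1]
    exact Matrix.map_one (conj hF) (map_zero _) (map_one _)

theorem mem_GU_iff_st (hF : Fintype.card F = q ^ 2) (B : Matrix.GeneralLinearGroup (Fin n) F) :
    B ∈ Cfsg.GU n F q ↔ st hF (B : Matrix (Fin n) (Fin n) F) * (B : Matrix (Fin n) (Fin n) F) = 1 := by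
  rw [← preserves_iff_st hF]
  rfl

theorem st_mt (hF : Fintype.card F = q ^ 2) (s : ↥(Cfsg.SU n F q)) : st hF (mt (iSU n F q) s) * mt (iSU n F q) s = 1 :=
  (preserves_iff_st hF _).1 s.2

theorem st_mt_eq (hF : Fintype.card F = q ^ 2) (s : ↥(Cfsg.SU n F q)) :
    st hF (mt (iSU n F q) s) = mt (iSU n F q) s⁻¹ := by
  have h1 := st_mt hF s
  have h2 := mt_mul_inv (iSU n F q) s
  calc st hF (mt (iSU n F q) s) = st hF (mt (iSU n F q) s) * (mt (iSU n F q) s * mt (iSU n F q) s⁻¹) := by
        rw [h2, mul_one]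
    _ = mt (iSU n F q) s⁻¹ := by rw [← mul_assoc, h1, one_mul]

theorem eq_conj (hF : Fintype.card F = q ^ 2) {σ : F ≃+* F} (hσ : ∀ c, σ c = c ^ q) : σ = conj hF := by
  ext c
  rw [hσ, conj_apply]

/-- The adjoint induces the identity. -/
theorem star_su {q : ℕ} (hF : Fintype.card F = q ^ 2) (π : ↥(Cfsg.SU n F q) →* G) (σ : F ≃+* F)
    (hσ : ∀ c, σ c = c ^ q) : Ind (iSU n F q) π 1 (tauM 1 σ) := by
  right
  refine ⟨tauM_mul _ _, fun s => ⟨s⁻¹, ?_, ?_⟩⟩
  · rw [← st_mt_eq hF, tauM_apply, eq_conj hF hσ, Units.val_one, one_mul, inv_one, Units.val_one, mul_one]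
    rfl
  · rw [map_inv, inv_inv, one_mul, inv_one, mul_one]

theorem ind_tauP_of_tauM (hF : Fintype.card F = q ^ 2) {π : ↥(Cfsg.SU n F q) →* G} (hn : 2 ≤ n) {g : G}
    {B : Matrix.GeneralLinearGroup (Fin n) F} {σ : F ≃+* F} (h : Ind (iSU n F q) π g (tauM B σ)) :
    Ind (iSU n F q) π g (tauP B ((conj hF).trans σ)) := by
  rw [ind_tauM hn] at h
  rw [ind_tauP hn]
  intro s
  obtain ⟨s', h1, h2⟩ := h s⁻¹
  refine ⟨s', ?_, ?_⟩
  · rw [h1, ← st_mt_eq hF, tauM_apply, tauP_apply]
    congr 2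
  · rw [← _root_.inv_inj, h2, map_inv]
    group

omit [Fintype F] in
theorem scalar_of_commute {ι : ↥(Cfsg.SU n F q) →* Matrix.GeneralLinearGroup (Fin n) F}
    (hspan : Submodule.span F (Set.range (mt ι)) = ⊤) {H : Matrix (Fin n) (Fin n) F}
    (h : ∀ s, H * mt ι s = mt ι s * H) : ∃ c : F, H = c • (1 : Matrix (Fin n) (Fin n) F) := by
  have h1 : ∀ x : Matrix (Fin n) (Fin n) F, H * x = x * H := by
    intro x
    have hx : x ∈ Submodule.span F (Set.range (mt ι)) := by rw [hspan]; trivial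
    induction hx using Submodule.span_induction with
    | mem x hx => obtain ⟨s, rfl⟩ := hx; exact h s
    | zero => simp
    | add x y _ _ hx hy => rw [mul_add, add_mul, hx, hy]
    | smul c x _ hx => rw [mul_smul_comm, smul_mul_assoc, hx]
  have h2 : H ∈ Set.range (Matrix.scalar (Fin n)) := by
    rw [Matrix.mem_range_scalar_iff_commute_single]
    intro i j _
    exact (h1 _).symm
  obtain ⟨c, hc⟩ := h2
  refine ⟨c, ?_⟩
  rw [← hc, Matrix.scalar_apply, Matrix.smul_one_eq_diagonal]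

/-- A lift `x ↦ B σ(x) B⁻¹` can be taken with `B` unitary. -/
theorem scale_su {q : ℕ} (hF : Fintype.card F = q ^ 2) {N : Subgroup G} {π : ↥(Cfsg.SU n F q) →* G} (hn : 2 ≤ n)
    (hM : Model N (iSU n F q) π) {g : G} {B : Matrix.GeneralLinearGroup (Fin n) F} {σ : F ≃+* F}
    (hB : Ind (iSU n F q) π g (tauP B σ)) :
    ∃ B' : Matrix.GeneralLinearGroup (Fin n) F, B' ∈ Cfsg.GU n F q ∧ tauP B' σ = tauP B σ := by
  have hn2 : 2 ≤ n := hn
  have hB' := hB
  rw [ind_tauP hn2] at hB'
  set X : Matrix (Fin n) (Fin n) F := (B : Matrix (Fin n) (Fin n) F) with hX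
  set X' : Matrix (Fin n) (Fin n) F := ((B⁻¹ : Matrix.GeneralLinearGroup (Fin n) F) : Matrix (Fin n) (Fin n) F)
    with hX'
  have hXX' : X * X' = 1 := GL_mul_inv B
  have hX'X : X' * X = 1 := GL_inv_mul B
  have hcomm : ∀ s, (st hF X * X) * (mt (iSU n F q) s).map σ = (mt (iSU n F q) s).map σ * (st hF X * X) := by
    intro s
    obtain ⟨s', h1, -⟩ := hB' s
    have h2 := st_mt hF s'
    rw [h1, tauP_apply] at h2
    change st hF (X * (mt (iSU n F q) s).map σ * X') * (X * (mt (iSU n F q) s).map σ * X') = 1 at h2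
    have h3 : (mt (iSU n F q) s).map σ * st hF ((mt (iSU n F q) s).map σ) = 1 := by
      rw [st_map, st_mt_eq, ← map_mul', mt_mul_inv]
      exact Matrix.map_one σ (map_zero _) (map_one _)
    generalize (mt (iSU n F q) s).map σ = Y at h2 h3
    rw [st_mul, st_mul] at h2
    have h4 : st hF X' * st hF X = 1 := by rw [← st_mul, hXX', st_one]
    have h5 : st hF X * st hF X' = 1 := by rw [← st_mul, hX'X, st_one]
    calc st hF X * X * Y = (Y * st hF Y) * (st hF X * X * Y) := by rw [h3, one_mul]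
      _ = Y * ((st hF X * st hF X') * (st hF Y * st hF X) * (X * Y * (X' * X))) := by
          rw [h5, hX'X, one_mul, mul_one]; simp only [mul_assoc]
      _ = Y * (st hF X * (st hF X' * (st hF Y * st hF X) * (X * Y * X')) * X) := by simp only [mul_assoc]
      _ = Y * (st hF X * X) := by rw [h2, mul_one]
  obtain ⟨c, hc⟩ : ∃ c : F, st hF X * X = c • (1 : Matrix (Fin n) (Fin n) F) := by
    have h1 : ∀ s, (st hF X * X).map σ.symm * mt (iSU n F q) s = mt (iSU n F q) s * (st hF X * X).map σ.symm := by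
      intro s
      have h2 := congrArg (fun z : Matrix (Fin n) (Fin n) F => z.map σ.symm) (hcomm s)
      simp only [map_mul'] at h2 ⊢
      have h3 : ((mt (iSU n F q) s).map σ).map σ.symm = mt (iSU n F q) s := by
        ext i j
        simp
      rw [h3] at h2
      exact h2
    obtain ⟨c, hc⟩ := scalar_of_commute hM.span h1
    refine ⟨σ c, ?_⟩
    have h2 := congrArg (fun z : Matrix (Fin n) (Fin n) F => z.map σ) hc
    ext i j
    have h3 := congrFun (congrFun h2 i) j
    simp only [Matrix.map_apply, RingEquiv.apply_symm_apply, Matrix.smul_apply, smul_eq_mul, map_mul] at h3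
    rw [h3, Matrix.smul_apply, smul_eq_mul, Matrix.one_apply]
    split_ifs <;> simp
  have i0 : Fin n := ⟨0, by omega⟩
  have hcq : c ^ q = c := by
    have h1 := congrArg (st hF) hc
    rw [st_mul, st_st, st_smul, st_one, hc] at h1
    have h2 := congrFun (congrFun h1 i0) i0
    simp only [Matrix.smul_apply, Matrix.one_apply_eq, smul_eq_mul, mul_one] at h2
    exact h2.symm
  have hc0 : c ≠ 0 := by
    rintro rfl
    rw [zero_smul] at hc
    have h1 : X = 0 := by
      have h4 : st hF X' * st hF X = 1 := by rw [← st_mul, hXX', st_one]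
      calc X = (st hF X' * st hF X) * X := by rw [h4, one_mul]
        _ = st hF X' * (st hF X * X) := by rw [mul_assoc]
        _ = 0 := by rw [hc, mul_zero]
    rw [h1, zero_mul] at hXX'
    have h2 := congrFun (congrFun hXX' i0) i0
    rw [Matrix.zero_apply, Matrix.one_apply_eq] at h2
    exact zero_ne_one h2
  obtain ⟨d, hd⟩ := exists_norm_eq hF hcq
  have hd0 : d ≠ 0 := by
    rintro rfl
    rw [zero_mul] at hd
    exact hc0 hd.symm
  have e1 : (d⁻¹ • X) * (d • X') = 1 := by
    rw [smul_mul_smul_comm, inv_mul_cancel₀ hd0, hXX', one_smul]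
  have e2 : (d • X') * (d⁻¹ • X) = 1 := by
    rw [smul_mul_smul_comm, mul_inv_cancel₀ hd0, hX'X, one_smul]
  refine ⟨⟨d⁻¹ • X, d • X', e1, e2⟩, ?_, ?_⟩
  · rw [mem_GU_iff_st hF]
    change st hF (d⁻¹ • X) * (d⁻¹ • X) = 1
    rw [st_smul, smul_mul_smul_comm, hc, smul_smul, ← hd]
    have h1 : d⁻¹ ^ q * d⁻¹ * (d * d ^ q) = 1 := by
      rw [inv_pow]
      have : d ^ q ≠ 0 := pow_ne_zero _ hd0
      field_simp
    rw [h1, one_smul]
  · ext1 x
    rw [tauP_apply, tauP_apply]
    change (d⁻¹ • X) * x.map σ * (d • X') = X * x.map σ * X'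
    rw [smul_mul_assoc, smul_mul_smul_comm, inv_mul_cancel₀ hd0, one_smul]

/-- Every element has a lift of the first kind, with `B` in the unitary group. -/
theorem lift_su {q : ℕ} (hF : Fintype.card F = q ^ 2) {N : Subgroup G} {π : ↥(Cfsg.SU n F q) →* G} (hn : 3 ≤ n)
    (hM : Model N (iSU n F q) π) (g : G) :
    ∃ (B : Matrix.GeneralLinearGroup (Fin n) F) (σ : F ≃+* F), B ∈ Cfsg.GU n F q ∧ Ind (iSU n F q) π g (tauP B σ) := by
  have hn2 : 2 ≤ n := by omega
  obtain ⟨B, σ, hB⟩ : ∃ (B : Matrix.GeneralLinearGroup (Fin n) F) (σ : F ≃+* F),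
      Ind (iSU n F q) π g (tauP B σ) := by
    obtain ⟨B, σ, h | h⟩ := hM.lift g
    · exact ⟨B, σ, h⟩
    · exact ⟨B, _, ind_tauP_of_tauM hF hn2 h⟩
  obtain ⟨B', hB1, hB2⟩ := scale_su hF hn2 hM hB
  exact ⟨B', σ, hB1, by rw [hB2]; exact hB⟩

/-- The bound for `|G : N|`. -/
theorem index_su [Finite G] {q : ℕ} (hF : Fintype.card F = q ^ 2) {N : Subgroup G} {π : ↥(Cfsg.SU n F q) →* G}
    (_hN : N.Normal) (hc : centralizer (N : Set G) = ⊥) (hn : 3 ≤ n) (hM : Model N (iSU n F q) π) :
    N.index ≤ Nat.card (F ≃+* F) * Nat.card π.ker := by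
  classical
  have hn2 : 2 ≤ n := by omega
  have hfinG : Finite (Cfsg.GU n F q) := LieClassical.GUOrder.finite_GU n
  have hfinS : Finite (Cfsg.SU n F q) := Finite.of_injective _ hM.inj
  have hfinR : Finite (F ≃+* F) :=
    Finite.of_injective (fun α : F ≃+* F => (α : F → F)) (fun α β h => RingEquiv.ext fun x => congrFun h x)
  choose B σ hBU hB using fun g => lift_su hF hn hM g
  have i0 : Fin n := ⟨0, by omega⟩
  let f : G × {c : F // c * c ^ q = 1} → ↥(Cfsg.GU n F q) × (F ≃+* F) :=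
    fun x => (ClassicalGeometry.PSUAutCount.sc n x.2 * ⟨B x.1, hBU x.1⟩, σ x.1)
  have hsc : ∀ (c : {c : F // c * c ^ q = 1}) (A : ↥(Cfsg.GU n F q)) (s : F ≃+* F),
      tauP ((ClassicalGeometry.PSUAutCount.sc n c * A : ↥(Cfsg.GU n F q)) : Matrix.GeneralLinearGroup (Fin n) F) s =
        tauP (A : Matrix.GeneralLinearGroup (Fin n) F) s := by
    intro c A s
    have hc0 : c.1 ≠ 0 := by
      intro h0
      have h1 := c.2
      rw [h0, zero_mul] at h1
      exact zero_ne_one h1
    have h1 : ((ClassicalGeometry.PSUAutCount.sc n c * A : ↥(Cfsg.GU n F q)) : Matrix.GeneralLinearGroup (Fin n) F) =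
        ⟨c.1 • (A.1 : Matrix (Fin n) (Fin n) F), c.1⁻¹ • ((A.1⁻¹ : Matrix.GeneralLinearGroup (Fin n) F) : Matrix (Fin n) (Fin n) F),
          by rw [smul_mul_smul_comm, mul_inv_cancel₀ hc0, GL_mul_inv, one_smul],
          by rw [smul_mul_smul_comm, inv_mul_cancel₀ hc0, GL_inv_mul, one_smul]⟩ := by
      apply Units.ext
      exact ClassicalGeometry.PSUAutCount.gm_sc_mul c A
    rw [h1]
    ext1 x
    rw [tauP_apply, tauP_apply]
    change (c.1 • (A.1 : Matrix (Fin n) (Fin n) F)) * x.map s *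
      (c.1⁻¹ • ((A.1⁻¹ : Matrix.GeneralLinearGroup (Fin n) F) : Matrix (Fin n) (Fin n) F)) = _
    rw [smul_mul_assoc, smul_mul_smul_comm, mul_inv_cancel₀ hc0, one_smul]
  have hf : Function.Injective f := by
    rintro ⟨g, c⟩ ⟨g', c'⟩ h
    have h1 : ClassicalGeometry.PSUAutCount.sc n c * ⟨B g, hBU g⟩ = ClassicalGeometry.PSUAutCount.sc n c' * ⟨B g', hBU g'⟩ :=
      congrArg Prod.fst h
    have h2 : σ g = σ g' := congrArg Prod.snd h
    have h3 : g = g' := by
      have e1 := hsc c ⟨B g, hBU g⟩ (σ g)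
      have e2 := hsc c' ⟨B g', hBU g'⟩ (σ g')
      rw [h1, h2, e2] at e1
      apply eq_of_ind hc hM.inj hM.range hn2 (hB g)
      have e3 := hB g'
      rw [h2]
      have e4 : tauP (B g') (σ g') = tauP (B g) (σ g') := e1
      rw [← e4]
      exact e3
    subst h3
    have h4 := mul_right_cancel h1
    have h5 := congrArg ClassicalGeometry.PSUAutCount.gm h4
    have h6 := congrFun (congrFun h5 i0) i0
    change Matrix.diagonal (fun _ => c.1) _ _ = Matrix.diagonal (fun _ => c'.1) _ _ at h6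
    rw [Matrix.diagonal_apply_eq, Matrix.diagonal_apply_eq] at h6
    rw [Subtype.ext h6]
  have h1 := Nat.card_le_card_of_injective f hf
  rw [Nat.card_prod, Nat.card_prod, card_norm_eq_one hF, LieClassical.GUOrder.card_GU_eq hF (by omega)] at h1
  have h2 : Nat.card (Cfsg.SU n F q) = Nat.card N * Nat.card π.ker := by
    rw [← hM.range, mul_comm]
    have e1 := Subgroup.card_mul_index π.ker
    rw [Subgroup.index_ker] at e1
    exact e1.symm
  have h3 : N.index * Nat.card N = Nat.card G := Subgroup.index_mul_card N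
  have hN0 : 0 < Nat.card N := Nat.card_pos
  rw [← h3, h2] at h1
  have h4 : (N.index) * (Nat.card N * (q + 1)) ≤ (Nat.card (F ≃+* F) * Nat.card π.ker) * (Nat.card N * (q + 1)) := by
    calc _ = N.index * Nat.card N * (q + 1) := by ring
      _ ≤ _ := h1
      _ = _ := by ring
  exact Nat.le_of_mul_le_mul_right h4 (Nat.mul_pos hN0 (Nat.succ_pos q))

/-- The matrices of `SU_n(q)` span the matrix ring. -/
theorem span_su (hF : Fintype.card F = q ^ 2) (hn : 3 ≤ n) :
    Submodule.span F (Set.range (mt (iSU n F q))) = ⊤ := by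
  have h := H920.span_eq_top (H918.SUg_absIrreducible (n := n) hF hn)
  rw [← h]
  congr 1
  ext x
  constructor
  · rintro ⟨s, rfl⟩
    exact ⟨_, H918.suHom_mem s, rfl⟩
  · rintro ⟨g, hg, rfl⟩
    obtain ⟨s, rfl⟩ := H918.exists_suHom hg
    exact ⟨s, rfl⟩

/-- The model. -/
theorem model_su {q : ℕ} (hF : Fintype.card F = q ^ 2) {N : Subgroup G} (hN : N.Normal)
    (_hc : centralizer (N : Set G) = ⊥) (hn : 3 ≤ n)
    (h3 : ¬ (n = 3 ∧ q = 2)) (e : ↥N ≃* Cfsg.PSU n F q) :
    ∃ π : ↥(Cfsg.SU n F q) →* G, Model N (iSU n F q) π := by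
  have hn2 : 2 ≤ n := by omega
  let π : ↥(Cfsg.SU n F q) →* G := N.subtype.comp (e.symm.toMonoidHom.comp (QuotientGroup.mk' (Subgroup.center (Cfsg.SU n F q))))
  have hπ : ∀ s, π s = (e.symm (QuotientGroup.mk' (Subgroup.center (Cfsg.SU n F q)) s) : G) := fun s => rfl
  refine ⟨π, ?_⟩
  have hinj : Function.Injective (iSU n F q) := H918.suHom_injective
  refine
    { two := hn2
      inj := hinj
      range := ?_
      ker := ?_
      det := ?_
      perfect := LieClassical.HermPerfect.commutator_SU_eq_top hF hn h3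
      span := span_su hF hn
      lift := ?_ }
  · ext x
    constructor
    · rintro ⟨s, rfl⟩
      exact (e.symm (QuotientGroup.mk' (Subgroup.center (Cfsg.SU n F q)) s)).2
    · intro hx
      obtain ⟨s, hs⟩ := QuotientGroup.mk'_surjective (Subgroup.center (Cfsg.SU n F q)) (e ⟨x, hx⟩)
      refine ⟨s, ?_⟩
      rw [hπ, hs, MulEquiv.symm_apply_apply]
  · intro s
    have h1 : π s = 1 ↔ s ∈ Subgroup.center (Cfsg.SU n F q) := by
      rw [hπ, ← Subgroup.coe_one N, Subtype.coe_inj, ← map_one e.symm, e.symm.apply_eq_iff_eq,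
        QuotientGroup.mk'_apply, QuotientGroup.eq_one_iff]
    rw [h1]
    constructor
    · intro h2
      apply scalar_of_commute (span_su hF hn)
      intro t
      have h4 := congrArg (mt (iSU n F q)) (Subgroup.mem_center_iff.1 h2 t)
      rw [mt_mul, mt_mul] at h4
      exact h4.symm
    · rintro ⟨c, h2⟩
      rw [Subgroup.mem_center_iff]
      intro t
      apply mt_inj hinj
      rw [mt_mul, mt_mul, h2, mul_smul_comm, smul_mul_assoc, mul_one, one_mul]
  · intro s
    exact (s : Matrix.SpecialLinearGroup (Fin n) F).2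
  · intro g
    let α : MulAut (Cfsg.PSU n F q) := (e.symm.trans (MulAut.conjNormal g)).trans e
    obtain ⟨A, ρ, hA⟩ := ClassicalGeometry.PSUAutMain.exists_toAut hF hn h3 α
    refine ⟨A, ρ, Or.inl ((ind_tauP hn2).2 fun s => ⟨ClassicalGeometry.PSUAutCount.semiConj A ρ s, rfl, ?_⟩)⟩
    have h4 : α (QuotientGroup.mk' (Subgroup.center (Cfsg.SU n F q)) s) =
        QuotientGroup.mk' (Subgroup.center (Cfsg.SU n F q)) (ClassicalGeometry.PSUAutCount.semiConj A ρ s) := by
      rw [hA]
      rfl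
    rw [hπ, ← h4, hπ]
    change ((e.symm (e (MulAut.conjNormal g (e.symm _)))) : G) = _
    rw [MulEquiv.symm_apply_apply, MulAut.conjNormal_apply]

end Unitary

end Cfsg.Agent.H296.TW
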