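import Mathlib
import Cfsg.Agent.H296.TW.ModSU

/-!
# S3694: groups of inner-diagonal automorphisms meeting the socle trivially are cyclic (helper296)

* `scale_su` : a lift `tauP B σ` may be taken with `B` unitary;
* `scalar_of_ind` : two lifts `tauP B 1`, `tauP C 1` of the same element differ by a scalar;
* `cyc_aux`, `cyc_sl`, `cyc_su` : `X ∩ N = 1`, all elements of `X` have lifts `x ↦ B x B⁻¹`: then `X` is cyclic.
-/

set_option autoImplicit false

namespace Cfsg.Agent.H296.TW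

open Cfsg Subgroup Matrix Cfsg.Agent.H607.TW
open scoped commutatorElement
open Cfsg.Agent.LieClassical.HermBasic (conj conj_apply pow_q_pow_q exists_norm_eq card_norm_eq_one q_pos)

universe u

section Basic

variable {G : Type u} [Group G] {F : Type} [Field F] {n : ℕ} {S : Type} [Group S]

theorem tauP_one_eq (B : Matrix.GeneralLinearGroup (Fin n) F) (x : Matrix (Fin n) (Fin n) F) :
    tauP B 1 x = (B : Matrix (Fin n) (Fin n) F) * x * ((B⁻¹ : Matrix.GeneralLinearGroup (Fin n) F) : Matrix (Fin n) (Fin n) F) := by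
  rw [tauP_apply]
  rfl

theorem tauP_one_mt (B : Matrix.GeneralLinearGroup (Fin n) F) (ι : S →* Matrix.GeneralLinearGroup (Fin n) F) (s : S) :
    tauP B 1 (mt ι s) = ((B * ι s * B⁻¹ : Matrix.GeneralLinearGroup (Fin n) F) : Matrix (Fin n) (Fin n) F) := by
  rw [tauP_one_eq, Units.val_mul, Units.val_mul]
  rfl

/-- `Ind` for inner-diagonal lifts, in the group `GL`. -/
theorem ind_one (hn : 2 ≤ n) {ι : S →* Matrix.GeneralLinearGroup (Fin n) F} {π : S →* G} {g : G}
    {B : Matrix.GeneralLinearGroup (Fin n) F} :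
    Ind ι π g (tauP B 1) ↔ ∀ s : S, ∃ s' : S, ι s' = B * ι s * B⁻¹ ∧ π s' = g * π s * g⁻¹ := by
  rw [ind_tauP hn]
  constructor
  · intro h s
    obtain ⟨s', h1, h2⟩ := h s
    rw [tauP_one_mt] at h1
    exact ⟨s', Units.ext h1, h2⟩
  · intro h s
    obtain ⟨s', h1, h2⟩ := h s
    refine ⟨s', ?_, h2⟩
    rw [tauP_one_mt, ← h1]
    rfl

/-- Conjugation by the matrix of `s` induces `π s`. -/
theorem ind_self (hn : 2 ≤ n) (ι : S →* Matrix.GeneralLinearGroup (Fin n) F) (π : S →* G) (s : S) :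
    Ind ι π (π s) (tauP (ι s) 1) := by
  rw [ind_one hn]
  intro t
  exact ⟨s * t * s⁻¹, by simp only [map_mul, map_inv], by simp only [map_mul, map_inv]⟩

theorem ind_mul_one (hn : 2 ≤ n) {ι : S →* Matrix.GeneralLinearGroup (Fin n) F} {π : S →* G} {g h : G}
    {B C : Matrix.GeneralLinearGroup (Fin n) F} (h1 : Ind ι π g (tauP B 1)) (h2 : Ind ι π h (tauP C 1)) :
    Ind ι π (g * h) (tauP (B * C) 1) := by
  rw [ind_one hn] at h1 h2 ⊢
  intro s
  obtain ⟨s1, e1, f1⟩ := h2 s
  obtain ⟨s2, e2, f2⟩ := h1 s1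
  refine ⟨s2, ?_, ?_⟩
  · rw [e2, e1]; group
  · rw [f2, f1]; group

/-- A scalar does not change the lift. -/
theorem ind_scalar (hn : 2 ≤ n) {ι : S →* Matrix.GeneralLinearGroup (Fin n) F} {π : S →* G} {g : G}
    {B : Matrix.GeneralLinearGroup (Fin n) F} (c : Fˣ) (h : Ind ι π g (tauP B 1)) :
    Ind ι π g (tauP (B * Matrix.GeneralLinearGroup.scalar (Fin n) c) 1) := by
  rw [ind_one hn] at h ⊢
  intro s
  obtain ⟨s', h1, h2⟩ := h s
  refine ⟨s', ?_, h2⟩
  have hc : ∀ A : Matrix.GeneralLinearGroup (Fin n) F, Matrix.GeneralLinearGroup.scalar (Fin n) c * A =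
      A * Matrix.GeneralLinearGroup.scalar (Fin n) c := fun A => Matrix.GeneralLinearGroup.scalar_commute c A
  have e : B * Matrix.GeneralLinearGroup.scalar (Fin n) c * ι s = B * ι s * Matrix.GeneralLinearGroup.scalar (Fin n) c := by
    rw [mul_assoc, hc, mul_assoc]
  rw [h1, e]
  group

/-- A matrix commuting with the matrices of `S` is scalar. -/
theorem scalar_of_comm {ι : S →* Matrix.GeneralLinearGroup (Fin n) F}
    (hspan : Submodule.span F (Set.range (mt ι)) = ⊤) {H : Matrix (Fin n) (Fin n) F}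
    (h : ∀ s, H * mt ι s = mt ι s * H) : ∃ c : F, H = c • (1 : Matrix (Fin n) (Fin n) F) := by
  have h1 : ∀ x : Matrix (Fin n) (Fin n) F, H * x = x * H := by
    intro x
    have hx : x ∈ Submodule.span F (Set.range (mt ι)) := by rw [hspan]; trivial
    induction hx using Submodule.span_induction with
    | mem x hx => obtain ⟨s, rfl⟩ := hx; exact h s
    | zero => simp
    | add x y _ _ hx hy => rw [mul_add, add_mul, hx, hy]
    | smul c x _ hx => rw [mul_smul_comm, smul_mul_assoc, hx]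
  have h2 : H ∈ Set.range (Matrix.scalar (Fin n)) := by
    rw [Matrix.mem_range_scalar_iff_commute_single]
    intro i j _
    exact (h1 _).symm
  obtain ⟨c, hc⟩ := h2
  refine ⟨c, ?_⟩
  rw [← hc, Matrix.scalar_apply, Matrix.smul_one_eq_diagonal]

/-- Elements of `ker π` are central. -/
theorem central_of_ker {N : Subgroup G} {ι : S →* Matrix.GeneralLinearGroup (Fin n) F} {π : S →* G}
    (hM : Model N ι π) {z : S} (hz : π z = 1) (u : S) : z * u = u * z := by
  obtain ⟨c, hc⟩ := (hM.ker z).1 hz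
  apply mt_inj hM.inj
  rw [mt_mul, mt_mul, hc, mul_smul_comm, smul_mul_assoc, mul_one, one_mul]

/-- Two lifts of the same element differ by a scalar. -/
theorem scalar_of_ind {N : Subgroup G} {ι : S →* Matrix.GeneralLinearGroup (Fin n) F} {π : S →* G}
    (hM : Model N ι π) {g : G}
    {B C : Matrix.GeneralLinearGroup (Fin n) F} (h1 : Ind ι π g (tauP B 1)) (h2 : Ind ι π g (tauP C 1)) :
    ∃ c : Fˣ, B = C * Matrix.GeneralLinearGroup.scalar (Fin n) c := by
  have hn := hM.two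
  rw [ind_one hn] at h1 h2
  have hcomm : ∀ s, B * ι s * B⁻¹ = C * ι s * C⁻¹ := by
    let f1 : S →* Matrix.GeneralLinearGroup (Fin n) F := (MulAut.conj B).toMonoidHom.comp ι
    let f2 : S →* Matrix.GeneralLinearGroup (Fin n) F := (MulAut.conj C).toMonoidHom.comp ι
    have hle : commutator S ≤ MonoidHom.eqLocus f1 f2 := by
      rw [commutator_def, Subgroup.commutator_le]
      intro s _ t _
      change f1 ⁅s, t⁆ = f2 ⁅s, t⁆
      obtain ⟨s1, a1, b1⟩ := h1 s
      obtain ⟨s2, a2, b2⟩ := h2 s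
      obtain ⟨t1, c1, d1⟩ := h1 t
      obtain ⟨t2, c2, d2⟩ := h2 t
      have hz : ∀ u, (s2⁻¹ * s1) * u = u * (s2⁻¹ * s1) :=
        central_of_ker hM (by rw [map_mul, map_inv, b1, b2, inv_mul_cancel])
      have hw : ∀ u, (t2⁻¹ * t1) * u = u * (t2⁻¹ * t1) :=
        central_of_ker hM (by rw [map_mul, map_inv, d1, d2, inv_mul_cancel])
      have hs : s1 = s2 * (s2⁻¹ * s1) := by group
      have ht : t1 = t2 * (t2⁻¹ * t1) := by group
      have e1 : f1 ⁅s, t⁆ = ι ⁅s1, t1⁆ := by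
        rw [map_commutatorElement, map_commutatorElement, a1, c1]
        rfl
      have e2 : f2 ⁅s, t⁆ = ι ⁅s2, t2⁆ := by
        rw [map_commutatorElement, map_commutatorElement, a2, c2]
        rfl
      rw [e1, e2]
      congr 1
      rw [hs, ht]
      generalize s2⁻¹ * s1 = z at hz
      generalize t2⁻¹ * t1 = w at hw
      rw [commutatorElement_def, commutatorElement_def]
      calc s2 * z * (t2 * w) * (s2 * z)⁻¹ * (t2 * w)⁻¹ = s2 * (z * (t2 * w)) * z⁻¹ * s2⁻¹ * (t2 * w)⁻¹ := by group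
        _ = s2 * t2 * (w * s2⁻¹) * w⁻¹ * t2⁻¹ := by rw [hz]; group
        _ = s2 * t2 * s2⁻¹ * t2⁻¹ := by rw [hw]; group
    rw [hM.perfect] at hle
    intro s
    exact hle (Subgroup.mem_top s)
  obtain ⟨c, hc⟩ : ∃ c : F, ((C⁻¹ * B : Matrix.GeneralLinearGroup (Fin n) F) : Matrix (Fin n) (Fin n) F) =
      c • (1 : Matrix (Fin n) (Fin n) F) := by
    apply scalar_of_comm hM.span
    intro s
    have e : (C⁻¹ * B) * ι s = ι s * (C⁻¹ * B) := by
      calc (C⁻¹ * B) * ι s = C⁻¹ * (B * ι s * B⁻¹) * B := by group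
        _ = C⁻¹ * (C * ι s * C⁻¹) * B := by rw [hcomm]
        _ = ι s * (C⁻¹ * B) := by group
    exact congrArg Units.val e
  have i0 : Fin n := ⟨0, by omega⟩
  have hc0 : c ≠ 0 := by
    rintro rfl
    rw [zero_smul] at hc
    have h3 := GL_mul_inv (C⁻¹ * B)
    rw [hc, zero_mul] at h3
    have h4 := congrFun (congrFun h3 i0) i0
    rw [Matrix.zero_apply, Matrix.one_apply_eq] at h4
    exact zero_ne_one h4
  refine ⟨Units.mk0 c hc0, ?_⟩
  have h5 : C⁻¹ * B = Matrix.GeneralLinearGroup.scalar (Fin n) (Units.mk0 c hc0) := by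
    apply Units.ext
    rw [hc]
    ext i j
    simp [Matrix.GeneralLinearGroup.scalar, Matrix.diagonal_apply, Matrix.one_apply]
  rw [← h5, mul_inv_cancel_left]

theorem det_scalar (c : Fˣ) :
    Matrix.GeneralLinearGroup.det (Matrix.GeneralLinearGroup.scalar (Fin n) c) = c ^ n := by
  apply Units.ext
  simp [Matrix.GeneralLinearGroup.scalar]

/-- `X ∩ N = 1`, all elements of `X` have lifts `x ↦ B x B⁻¹` with `B ∈ Q`: then `X` is cyclic. -/
theorem cyc_aux [Finite F] {N : Subgroup G} {ι : S →* Matrix.GeneralLinearGroup (Fin n) F} {π : S →* G}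
    (hc : centralizer (N : Set G) = ⊥) (hM : Model N ι π) (Q : Subgroup (Matrix.GeneralLinearGroup (Fin n) F))
    (hQ : ∀ B ∈ Q, (Matrix.GeneralLinearGroup.det B) = 1 → ∃ s, ι s = B)
    {X : Subgroup G} (hX : X ⊓ N = ⊥) (h : ∀ x ∈ X, ∃ B ∈ Q, Ind ι π x (tauP B 1)) : IsCyclic X := by
  classical
  have hn := hM.two
  choose B hBQ hB using fun x : X => h x.1 x.2
  -- the `n`-th powers of the scalars of `Q`
  let P : Subgroup Fˣ := (Q.comap (Matrix.GeneralLinearGroup.scalar (Fin n))).map (powMonoidHom n)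
  let f : X →* Fˣ ⧸ P := MonoidHom.mk' (fun x => (Matrix.GeneralLinearGroup.det (B x) : Fˣ ⧸ P)) (by
    intro x y
    obtain ⟨c, hcc⟩ := scalar_of_ind hM (ind_mul_one hn (hB x) (hB y)) (hB (x * y))
    have hcQ : Matrix.GeneralLinearGroup.scalar (Fin n) c ∈ Q := by
      have e : Matrix.GeneralLinearGroup.scalar (Fin n) c = (B (x * y))⁻¹ * (B x * B y) := by
        rw [hcc, inv_mul_cancel_left]
      rw [e]
      exact Q.mul_mem (Q.inv_mem (hBQ _)) (Q.mul_mem (hBQ _) (hBQ _))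
    have e1 := congrArg Matrix.GeneralLinearGroup.det hcc
    rw [map_mul, map_mul, det_scalar] at e1
    rw [← QuotientGroup.mk_mul, e1]
    rw [QuotientGroup.eq]
    refine ⟨c, hcQ, ?_⟩
    simp)
  have hf : Function.Injective f := by
    rw [injective_iff_map_eq_one]
    intro x hx
    have hx1 : (Matrix.GeneralLinearGroup.det (B x) : Fˣ ⧸ P) = 1 := hx
    rw [QuotientGroup.eq_one_iff] at hx1
    obtain ⟨c, hcQ, hcn⟩ := hx1
    have hcn' : c ^ n = Matrix.GeneralLinearGroup.det (B x) := hcn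
    have e1 : Matrix.GeneralLinearGroup.det (B x * Matrix.GeneralLinearGroup.scalar (Fin n) c⁻¹) = 1 := by
      rw [map_mul, det_scalar, ← hcn', inv_pow, mul_inv_cancel]
    have hcQ' : Matrix.GeneralLinearGroup.scalar (Fin n) c⁻¹ ∈ Q := by
      rw [map_inv]
      exact Q.inv_mem hcQ
    obtain ⟨s, hs⟩ := hQ _ (Q.mul_mem (hBQ x) hcQ') e1
    have e2 := ind_scalar hn c⁻¹ (hB x)
    rw [← hs] at e2
    have e3 := eq_of_ind hc hM.inj hM.range hn e2 (ind_self hn ι π s)
    have e4 : (x : G) ∈ X ⊓ N := ⟨x.2, by rw [← hM.range]; exact ⟨s, e3.symm⟩⟩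
    rw [hX, Subgroup.mem_bot] at e4
    exact Subtype.ext e4
  have h1 : IsCyclic (Fˣ ⧸ P) := isCyclic_of_surjective (QuotientGroup.mk' P) (QuotientGroup.mk'_surjective P)
  exact isCyclic_of_injective f hf

theorem cyc_sl [Finite F] {N : Subgroup G} {π : Matrix.SpecialLinearGroup (Fin n) F →* G} (_hN : N.Normal)
    (hc : centralizer (N : Set G) = ⊥) (hM : Model N (iSL n F) π) (X : Subgroup G) (hX : X ⊓ N = ⊥)
    (h : ∀ x ∈ X, ∃ B, Ind (iSL n F) π x (tauP B 1)) : IsCyclic X := by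
  refine cyc_aux hc hM ⊤ ?_ hX (fun x hx => ?_)
  · intro B _ hB
    have hB' : (B : Matrix (Fin n) (Fin n) F).det = 1 := congrArg Units.val hB
    exact ⟨⟨B, hB'⟩, Units.ext rfl⟩
  · obtain ⟨B, hB⟩ := h x hx
    exact ⟨B, trivial, hB⟩

end Basic

section Unitary

variable {G : Type u} [Group G] {F : Type} [Field F] [Fintype F] {n q : ℕ}

theorem cyc_su {q : ℕ} (hF : Fintype.card F = q ^ 2) {N : Subgroup G} {π : ↥(Cfsg.SU n F q) →* G} (_hN : N.Normal)
    (hc : centralizer (N : Set G) = ⊥) (hn : 3 ≤ n) (hM : Model N (iSU n F q) π) (X : Subgroup G) (hX : X ⊓ N = ⊥)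
    (h : ∀ x ∈ X, ∃ B, Ind (iSU n F q) π x (tauP B 1)) : IsCyclic X := by
  refine cyc_aux hc hM (Cfsg.GU n F q) ?_ hX (fun x hx => ?_)
  · intro B hBU hB
    have hB' : (B : Matrix (Fin n) (Fin n) F).det = 1 := congrArg Units.val hB
    obtain ⟨s, hs⟩ := H918.exists_suHom (q := q) (g := B) (H918.mem_SUg.2 ⟨hBU, hB'⟩)
    exact ⟨s, hs⟩
  · obtain ⟨B, hB⟩ := h x hx
    obtain ⟨B', hB1, hB2⟩ := scale_su hF (by omega) hM hB
    exact ⟨B', hB1, by rw [hB2]; exact hB⟩

end Unitary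

end Cfsg.Agent.H296.TW
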